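import Cfsg.Agent.H225.PPow.Long
import Cfsg.Agent.H795.NCritLie
import Cfsg.Agent.Nodes.RGDTwD4

/-!
# S3509, row `³D₄(q)`, box T4: the commuting root groups of `D₄` (helper256)
-/

set_option autoImplicit false
set_option linter.unusedSectionVars false

namespace Cfsg.Agent.H256.TD

open CoxeterSystem Cfsg Cfsg.Lie Cfsg.Lie.ChevalleyDatum
open Cfsg.Agent.ChevalleyStructure Cfsg.Agent.ChevalleyStructure.Elts Cfsg.Agent.ChevalleyStructure.CoxeterGeom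
  Cfsg.Agent.ChevalleyStructure.CoxeterGeomTypes Cfsg.Agent.ChevalleyStructure.NPerm
open Cfsg.Agent.Tits.Roots Cfsg.Agent.Nodes Cfsg.Agent.Nodes.RGDChev
open Cfsg.Agent.KFacts.RgdField Cfsg.Agent.KFacts.RgdChevCoord
open Cfsg.Agent.H225.PPow

universe u

theorem lt_tab : chevD4.nroots = 24 := by decide +kernel

theorem tab : ∀ r s : Fin 24, (∃ t : Fin 24, vec chevD4 4 t = vec chevD4 4 r + vec chevD4 4 s) ∨ r = s ∨
    vec chevD4 4 r = -vec chevD4 4 s ∨ (chevD4.commTerms r s = [] ∧ (s : ℕ) ≠ chevD4.neg r) := by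
  decide +kernel

variable {K : Type u} [Field K]

/-- **Commuting root groups.** -/
theorem XX_comm {a b : Fin 4 → ℤ} (ha : IsRoot coxeterD4.toCoxeterSystem RGDTwD4.hp.isCartan a)
    (hb : IsRoot coxeterD4.toCoxeterSystem RGDTwD4.hp.isCartan b)
    (hab : ¬ IsRoot coxeterD4.toCoxeterSystem RGDTwD4.hp.isCartan (a + b)) (hne : a ≠ -b) :
    ∀ x ∈ XX chevD4 4 K a, ∀ y ∈ XX chevD4 4 K b, x * y = y * x := by
  obtain ⟨i, hi, rfl⟩ := (isRoot_iff RGDTwD4.hp coxeterD4.toCoxeterSystem _).1 ha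
  obtain ⟨j, hj, rfl⟩ := (isRoot_iff RGDTwD4.hp coxeterD4.toCoxeterSystem _).1 hb
  intro x hx y hy
  obtain ⟨t, rfl⟩ := (mem_XX_vec RGDTwD4.hp hi).1 hx
  obtain ⟨u, rfl⟩ := (mem_XX_vec RGDTwD4.hp hj).1 hy
  have hi' : i < 24 := by rw [← lt_tab]; exact hi
  have hj' : j < 24 := by rw [← lt_tab]; exact hj
  rcases tab ⟨i, hi'⟩ ⟨j, hj'⟩ with ⟨k, hk⟩ | h | h | ⟨h, h'⟩
  · exfalso
    refine hab ((isRoot_iff RGDTwD4.hp coxeterD4.toCoxeterSystem _).2 ⟨k, ?_, hk⟩)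
    rw [lt_tab]; exact k.2
  · have e : i = j := congrArg Fin.val h
    subst e
    rw [← ex_add, ← ex_add, add_comm]
  · exact absurd h hne
  · by_cases e : i = j
    · subst e
      rw [← ex_add, ← ex_add, add_comm]
    · exact Subtype.ext (H795.NCrit.xG_commute RGDTwD4.hp.inList hi hj (Ne.symm e) h' h t u).eq

end Cfsg.Agent.H256.TD
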