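import Mathlib
import Cfsg.Agent.ChevalleyStructure.SL2Hom

/-!
# S3509, row `³D₄(q)`, box T4: normal subgroups of `SL₂(F)` (helper256)

* `eq_top` : a normal subgroup of `SL₂(F)`, `F` finite, containing `up c`, `c ≠ 0`, is `SL₂(F)`;
* `exists_prime` : if `N` is normalised by `ψ(SL₂(F))`, `y` commutes with `ψ(SL₂(F))` and `y ψ(up c) ∈ N`, then
  `N` contains an element `ψ g ≠ 1` of prime order `t`, for each odd prime `t ∣ |F| - 1`.
-/

set_option autoImplicit false

namespace Cfsg.Agent.H256.TD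

open Cfsg.Agent.ChevalleyStructure.SL2Hom (up lo mem_closure_SL2)

variable {F : Type*} [Field F]

theorem up_add (s t : F) : up (s + t) = up s * up t := by
  apply Subtype.ext
  show (up (s + t)).1 = (up s).1 * (up t).1
  ext i j
  fin_cases i <;> fin_cases j <;> simp [up, Matrix.mul_apply, Fin.sum_univ_two, add_comm]

theorem up_zero : up (0 : F) = 1 := by
  apply Subtype.ext
  ext i j
  fin_cases i <;> fin_cases j <;> simp [up]

theorem up_neg (s : F) : up (-s) = (up s)⁻¹ := by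
  rw [eq_inv_iff_mul_eq_one, ← up_add, neg_add_cancel, up_zero]

/-- the diagonal element -/
def dg (a : Fˣ) : Matrix.SpecialLinearGroup (Fin 2) F := ⟨!![(a : F), 0; 0, ((a⁻¹ : Fˣ) : F)], by simp⟩

theorem dg_mul (a b : Fˣ) : dg (a * b) = dg a * dg b := by
  apply Subtype.ext
  show (dg (a * b)).1 = (dg a).1 * (dg b).1
  ext i j
  fin_cases i <;> fin_cases j <;> simp [dg, Matrix.mul_apply, Fin.sum_univ_two, mul_comm]

theorem dg_one : dg (1 : Fˣ) = 1 := by
  apply Subtype.ext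
  ext i j
  fin_cases i <;> fin_cases j <;> simp [dg]

theorem dg_pow (a : Fˣ) (n : ℕ) : dg (a ^ n) = dg a ^ n := by
  induction n with
  | zero => rw [pow_zero, pow_zero, dg_one]
  | succ n ih => rw [pow_succ, pow_succ, dg_mul, ih]

theorem dg_up (a : Fˣ) (c : F) : dg a * up c = up ((a : F) ^ 2 * c) * dg a := by
  apply Subtype.ext
  show (dg a).1 * (up c).1 = (up ((a : F) ^ 2 * c)).1 * (dg a).1
  ext i j
  fin_cases i <;> fin_cases j <;> simp [dg, up, Matrix.mul_apply, Fin.sum_univ_two]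
  field_simp

/-- the Weyl element -/
def wl : Matrix.SpecialLinearGroup (Fin 2) F := ⟨!![0, 1; -1, 0], by simp⟩

theorem wl_up (c : F) : wl * up c = lo (-c) * wl := by
  apply Subtype.ext
  show (wl (F := F)).1 * (up c).1 = (lo (-c)).1 * (wl (F := F)).1
  ext i j
  fin_cases i <;> fin_cases j <;> simp [wl, up, lo, Matrix.mul_apply, Fin.sum_univ_two]

/-- **A normal subgroup with a nontrivial `up c` is everything.** -/
theorem eq_top [Finite F] {N : Subgroup (Matrix.SpecialLinearGroup (Fin 2) F)} [hN : N.Normal] {c : F} (hc : c ≠ 0)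
    (h : up c ∈ N) : N = ⊤ := by
  have := Fintype.ofFinite F
  have h1 : ∀ a : F, up (a ^ 2 * c) ∈ N := by
    intro a
    by_cases ha : a = 0
    · rw [ha]
      have e : up ((0 : F) ^ 2 * c) = 1 := by rw [← up_zero]; congr 1; ring
      rw [e]; exact one_mem _
    · have h2 := hN.conj_mem _ h (dg (Units.mk0 a ha))
      have e : dg (Units.mk0 a ha) * up c * (dg (Units.mk0 a ha))⁻¹ = up (a ^ 2 * c) := by
        rw [dg_up, mul_inv_cancel_right]; rfl
      rwa [e] at h2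
  have h2 : ∀ x : F, up x ∈ N := by
    intro x
    by_cases h3 : ringChar F = 2
    · obtain ⟨y, hy⟩ := FiniteField.isSquare_of_char_two h3 (x / c)
      have e : x = y ^ 2 * c := by
        rw [pow_two, ← hy, div_mul_cancel₀ _ hc]
      rw [e]; exact h1 y
    · have h4 : (2 : F) ≠ 0 := Ring.two_ne_zero h3
      have e : x = ((x / c + 1) / 2) ^ 2 * c + -(((x / c - 1) / 2) ^ 2 * c) := by
        field_simp
        ring
      rw [e, up_add, up_neg]
      exact mul_mem (h1 _) (inv_mem (h1 _))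
  rw [eq_top_iff]
  intro g _
  refine (Subgroup.closure_le _).2 ?_ (mem_closure_SL2 g)
  rintro _ (⟨t, rfl⟩ | ⟨t, rfl⟩)
  · exact h2 t
  · have h5 := hN.conj_mem _ (h2 (-t)) wl
    rw [wl_up, neg_neg, mul_inv_cancel_right] at h5
    exact h5

/-- **Elements of prime order.** -/
theorem exists_prime [Fintype F] {Y : Type*} [Group Y] (ψ : Matrix.SpecialLinearGroup (Fin 2) F →* Y)
    (hψ : ∀ c, ψ (up c) = 1 → c = 0) {N : Subgroup Y} (hN : ∀ g, ∀ v ∈ N, ψ g * v * (ψ g)⁻¹ ∈ N)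
    {y : Y} (hy : ∀ g, y * ψ g = ψ g * y) {c : F} (hc : c ≠ 0) (h : y * ψ (up c) ∈ N) {t : ℕ} (ht : t.Prime)
    (ht2 : t ≠ 2) (htF : t ∣ Fintype.card F - 1) : ∃ g, ψ g ∈ N ∧ ψ g ≠ 1 ∧ g ^ t = 1 := by
  classical
  have hfact : Fact t.Prime := ⟨ht⟩
  have hcard : Nat.card Fˣ = Fintype.card F - 1 := by
    rw [Nat.card_eq_fintype_card, Fintype.card_units]
  obtain ⟨a, ha⟩ := exists_prime_orderOf_dvd_card' (G := Fˣ) t (by rw [hcard]; exact htF)
  have ha2 : (a : F) ^ 2 - 1 ≠ 0 := by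
    intro h0
    have h1 : a ^ 2 = 1 := by
      apply Units.ext
      rw [Units.val_pow_eq_pow_val, Units.val_one]
      exact sub_eq_zero.1 h0
    have h2 : t ∣ 2 := by rw [← ha]; exact orderOf_dvd_of_pow_eq_one h1
    exact ht2 ((Nat.prime_dvd_prime_iff_eq ht Nat.prime_two).1 h2)
  have key : ∀ c : F, ψ (dg a) * ψ (up c) * (ψ (dg a))⁻¹ = ψ (up c) * ψ (up (((a : F) ^ 2 - 1) * c)) := by
    intro c
    rw [← map_inv, ← map_mul, ← map_mul, ← map_mul, dg_up, mul_inv_cancel_right, ← up_add]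
    congr 2
    ring
  have h1 : ψ (up (((a : F) ^ 2 - 1) * c)) ∈ N := by
    have h2 := hN (dg a) _ h
    have e : ψ (dg a) * (y * ψ (up c)) * (ψ (dg a))⁻¹ = y * ψ (up c) * ψ (up (((a : F) ^ 2 - 1) * c)) := by
      rw [← mul_assoc, ← hy, mul_assoc y, mul_assoc y, key, mul_assoc]
    rw [e] at h2
    have h3 := mul_mem (inv_mem h) h2
    rwa [inv_mul_cancel_left] at h3
  have hnor : (N.comap ψ).Normal := ⟨fun v hv g => by
    rw [Subgroup.mem_comap, map_mul, map_mul, map_inv]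
    exact hN g _ hv⟩
  have htop : N.comap ψ = ⊤ := eq_top (c := ((a : F) ^ 2 - 1) * c) (mul_ne_zero ha2 hc) h1
  refine ⟨dg a, ?_, ?_, ?_⟩
  · have h4 : dg a ∈ N.comap ψ := by rw [htop]; exact Subgroup.mem_top _
    exact h4
  · intro h5
    have h6 := key 1
    rw [h5, one_mul, inv_one, mul_one] at h6
    have h7 : ψ (up (((a : F) ^ 2 - 1) * 1)) = 1 := by
      have h8 : ψ (up (1 : F)) * 1 = ψ (up 1) * ψ (up (((a : F) ^ 2 - 1) * 1)) := by rw [mul_one]; exact h6
      exact (mul_left_cancel h8).symm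
    have h9 := hψ _ h7
    rw [mul_one] at h9
    exact ha2 h9
  · rw [← dg_pow, ← ha, pow_orderOf_eq_one, dg_one]

/-- the prime -/
theorem exists_t {q : ℕ} (hq : 2 ≤ q) : ∃ t : ℕ, t.Prime ∧ t ∣ q ^ 2 + q + 1 ∧ ¬ t ∣ q ^ 2 - 1 ∧ t ≠ 2 ∧ ¬ t ∣ q := by
  have hodd : ¬ 2 ∣ q ^ 2 + q + 1 := by
    intro h
    rcases Nat.even_or_odd q with ⟨k, hk⟩ | ⟨k, hk⟩
    · subst hk
      have : (k + k) ^ 2 + (k + k) + 1 = 2 * (2 * k ^ 2 + k) + 1 := by ring
      omega
    · subst hk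
      have : (2 * k + 1) ^ 2 + (2 * k + 1) + 1 = 2 * (2 * k ^ 2 + 3 * k + 1) + 1 := by ring
      omega
  have hcop : ∀ t : ℕ, t.Prime → t ∣ q ^ 2 + q + 1 → ¬ t ∣ q := by
    intro t ht h1 h2
    have h3 : t ∣ 1 := by
      have h4 : t ∣ q ^ 2 + q := dvd_add (dvd_pow h2 (by norm_num)) h2
      exact (Nat.dvd_add_right h4).1 h1
    exact ht.one_lt.ne' (Nat.dvd_one.1 h3)
  -- a prime divisor dividing `q² - 1` is `3`
  have h3 : ∀ t : ℕ, t.Prime → t ∣ q ^ 2 + q + 1 → t ∣ q ^ 2 - 1 → t = 3 := by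
    intro t ht h1 h2
    have e1 : q ^ 2 - 1 = (q + 1) * (q - 1) := by
      obtain ⟨k, rfl⟩ : ∃ k, q = k + 1 := ⟨q - 1, by omega⟩
      have : (k + 1) ^ 2 - 1 = k ^ 2 + 2 * k := by
        have : (k + 1) ^ 2 = k ^ 2 + 2 * k + 1 := by ring
        omega
      rw [this]
      simp only [Nat.add_sub_cancel]
      ring
    rw [e1] at h2
    rcases (Nat.Prime.dvd_mul ht).1 h2 with h4 | h4
    · exfalso
      have h5 : t ∣ q * (q + 1) := Dvd.dvd.mul_left h4 q
      have h6 : t ∣ 1 := by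
        have e : q ^ 2 + q + 1 = q * (q + 1) + 1 := by ring
        rw [e] at h1
        exact (Nat.dvd_add_right h5).1 h1
      exact ht.one_lt.ne' (Nat.dvd_one.1 h6)
    · have h5 : t ∣ 3 := by
        obtain ⟨k, rfl⟩ : ∃ k, q = k + 1 := ⟨q - 1, by omega⟩
        simp only [Nat.add_sub_cancel] at h4
        have e : (k + 1) ^ 2 + (k + 1) + 1 = k * (k + 3) + 3 := by ring
        rw [e] at h1
        exact (Nat.dvd_add_right (Dvd.dvd.mul_right h4 _)).1 h1
      exact (Nat.prime_dvd_prime_iff_eq ht Nat.prime_three).1 h5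
  by_contra hno
  push Not at hno
  have hall : ∀ t : ℕ, t.Prime → t ∣ q ^ 2 + q + 1 → t = 3 := by
    intro t ht h1
    by_contra hne
    have h2 : ¬ t ∣ q ^ 2 - 1 := fun h => hne (h3 t ht h1 h)
    have h4 : t ≠ 2 := by
      rintro rfl
      exact hodd h1
    exact hcop t ht h1 (hno t ht h1 h2 h4)
  have hne1 : q ^ 2 + q + 1 ≠ 1 := by
    have : 0 < q ^ 2 := by positivity
    omega
  have h5 := Nat.eq_prime_pow_of_unique_prime_dvd (n := q ^ 2 + q + 1) (p := 3) (by omega)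
    (fun {t} ht h => hall t ht h)
  generalize (q ^ 2 + q + 1).primeFactorsList.length = k at h5
  have hq2 : 2 * 2 ≤ q * q := Nat.mul_le_mul hq hq
  match k, h5 with
  | 0, h5 => exact hne1 (by rw [h5, pow_zero])
  | 1, h5 =>
    rw [pow_one, pow_two] at h5
    omega
  | (k + 2), h5 =>
    have h6 : 9 ∣ q ^ 2 + q + 1 := by
      rw [h5, pow_add]
      exact ⟨3 ^ k, by ring⟩
    have h7 : (q ^ 2 + q + 1) % 9 = 0 := Nat.mod_eq_zero_of_dvd h6
    have h8 : q % 9 < 9 := Nat.mod_lt _ (by norm_num)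
    rw [Nat.add_mod, Nat.add_mod (q ^ 2), Nat.pow_mod] at h7
    generalize q % 9 = c at h7 h8
    interval_cases c <;> norm_num at h7

end Cfsg.Agent.H256.TD
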