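import Cfsg.Agent.H256.TD.SLTwo
import Cfsg.Agent.H256.TD.Comm
import Cfsg.Agent.H39.TD.Ncl
import Cfsg.Agent.H202.TD.Psi
import Cfsg.Agent.H129.TorusChar
import Cfsg.Agent.H696.GmnToral
import Cfsg.Agent.H256.EX.GenA

/-!
# S3509, row `³D₄(q)`, box T4: the case of an orbit of three orthogonal roots (helper256)

`three` : `H39.TD.Three m`.
-/

set_option autoImplicit false
set_option linter.unusedSectionVars false

namespace Cfsg.Agent.H256.TD

open CoxeterSystem Cfsg Cfsg.Lie Cfsg.Lie.ChevalleyDatum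
open Cfsg.Agent.ChevalleyStructure Cfsg.Agent.ChevalleyStructure.Elts Cfsg.Agent.ChevalleyStructure.CoxeterGeom
  Cfsg.Agent.ChevalleyStructure.CoxeterGeomTypes Cfsg.Agent.ChevalleyStructure.NPerm
open Cfsg.Agent.Tits.Roots Cfsg.Agent.Tits.Core Cfsg.Agent.Nodes Cfsg.Agent.Nodes.Reps Cfsg.Agent.Nodes.BNOf
  Cfsg.Agent.Nodes.RGDChev Cfsg.Agent.Nodes.Bruhat Cfsg.Agent.Nodes.NormalForm Cfsg.Agent.Nodes.Coroot
open Cfsg.Agent.KFacts.RgdField Cfsg.Agent.KFacts.RgdChevCoord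
open Cfsg.Agent.BpExc Cfsg.Agent.BpExc.TorCent Cfsg.Agent.BpExc.TorChev Cfsg.Agent.BpExc.Tow
  Cfsg.Agent.BpExc.TowChev Cfsg.Agent.BpExc.Fr Cfsg.Agent.BpExc.Pair Cfsg.Agent.BpExc.LangFr Cfsg.Agent.GpExc.Field
  Cfsg.Agent.BpExc.NInst Cfsg.Agent.BpExc.NChev
open Cfsg.Agent.H469.Exc Cfsg.Agent.H316.U6 Cfsg.Agent.H169.RG Cfsg.Agent.H864.TD Cfsg.Agent.H129.TorusChar
open Cfsg.Agent.H225.PPow
open Cfsg.Agent.H720.TwFr (permE rho4)

universe u v

/-! ### root groups -/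

section Root

variable {r : ℕ} [hr : Fact r.Prime]

/-- an element of `X_c` commuting with `X_{-c}` is trivial -/
theorem eq_one_of_comm {D : ChevalleyDatum} {l : ℕ} {M : CoxeterMatrix (Fin l)} (hp : IsType D l M)
    {c : Fin l → ℤ} (hc : IsRoot M.toCoxeterSystem hp.isCartan c) {u : ↥(D.group (KK r))}
    (hu : u ∈ XX D l (KK r) c) (hab : ∀ y ∈ XX D l (KK r) c, u * y = y * u)
    (h : ∀ y ∈ XX D l (KK r) (-c), u * y = y * u) : u = 1 := by
  have := finite_W hp M.toCoxeterSystem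
  have H := tow (k := KK r) hp M.toCoxeterSystem (locFin r) r
  have hXL := XL_eq (k := KK r) hp (locFin r)
  by_contra hu1
  obtain ⟨w, i, e, k, hk, hkr⟩ := H256.EX.exists_rfl_ZL H (S := {x | x = c ∨ x = -c})
    (by rintro x (rfl | rfl); exacts [hc, hc.neg]) (by
      rintro x (rfl | rfl)
      · exact Or.inr rfl
      · exact Or.inl (neg_neg c)) (a := c) (Or.inl rfl)
  have h1 : RGD.Sup (XL (Xj hp (k := KK r))) {x | x = c ∨ x = -c} ≤ Subgroup.centralizer {u} := by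
    refine RGD.Sup_le ?_
    rintro x hx y hy
    rw [Subgroup.mem_centralizer_singleton_iff]
    rw [hXL] at hy
    rcases hx with rfl | rfl
    · exact (hab y hy).symm
    · exact (h y hy).symm
  have h2 : k * u = u * k := Subgroup.mem_centralizer_singleton_iff.1 (h1 hk)
  have h3 : k * u * k⁻¹ ∈ cj k (XL (Xj hp (k := KK r)) c) := conj_mem_cj.2 (by rw [hXL]; exact hu)
  rw [H.conj_rp hkr hc, h2, mul_inv_cancel_right, rep_rfl'_eq, ← e, cpr_self _ _ hc, hXL] at h3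
  have e2 : c - (2 : ℤ) • c = -c := by
    rw [two_smul]; abel
  rw [e2] at h3
  have h4 := H696.GmnToral.XX_injective hp M.toCoxeterSystem (locFin r) r hc hc.neg hu1 hu h3
  exact hc.ne_zero (self_eq_neg.1 h4)

end Root

/-! ### the normal closure -/

section Ncl

variable {r q : ℕ} [hr : Fact r.Prime] {K₀ : Type v} [Group K₀] {m : MData RGDTwD4.hp r q K₀} {s u : Y4 r}

theorem ncl_conj {c v : Y4 r} (hc : m.σ c = c) (hcs : c * s = s * c) (hv : v ∈ ncl m s u) :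
    c * v * c⁻¹ ∈ ncl m s u := by
  have h1 : ncl m s u ≤ (ncl m s u).comap (MulAut.conj c).toMonoidHom := by
    refine (Subgroup.closure_le _).2 ?_
    rintro _ ⟨g, hg, hgs, rfl⟩
    refine Subgroup.subset_closure ⟨c * g, by rw [map_mul, hc, hg], ?_, ?_⟩
    · rw [mul_assoc, hgs, ← mul_assoc, hcs, mul_assoc]
    · show c * (g * u * g⁻¹) * c⁻¹ = _
      group
  exact h1 hv

theorem self_mem : u ∈ ncl m s u :=
  Subgroup.subset_closure ⟨1, map_one _, by rw [one_mul, mul_one], by group⟩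

theorem ncl_le {u' : Y4 r} (h : u' ∈ ncl m s u) : ncl m s u' ≤ ncl m s u := by
  refine (Subgroup.closure_le _).2 ?_
  rintro _ ⟨g, hg, hgs, rfl⟩
  exact ncl_conj hg hgs h

end Ncl

/-! ### the case of three orthogonal roots -/

section Psi

variable {r q : ℕ} [hr : Fact r.Prime] {K₀ : Type v} [Group K₀] {m : MData RGDTwD4.hp r q K₀} {s u : Y4 r}

/-- abbreviation: roots of `D₄` -/
abbrev R4 (a : Fin 4 → ℤ) : Prop := IsRoot coxeterD4.toCoxeterSystem RGDTwD4.hp.isCartan a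

/-- abbreviation: the roots trivial on `t` -/
abbrev S4 (t : Y4 r) : Set (Fin 4 → ℤ) := Sx coxeterD4.toCoxeterSystem RGDTwD4.hp.isCartan (ch RGDTwD4.hp) t

theorem s_pow (f : TorForm m s) {b : Fin 4 → ℤ} (hb : b ∈ S4 f.t) (hb1 : f.θ b ∈ S4 f.t) (hb2 : f.θ (f.θ b) ∈ S4 f.t)
    (hspan : ∀ v, ∃ c₀ c₁ c₂ : ℤ, f.θ (f.θ v) - v = c₀ • b + c₁ • f.θ b + c₂ • f.θ (f.θ b)) :
    s ^ (q ^ 2 - 1) = 1 := by
  have hχ : IsMC (cX RGDTwD4.hp f.t) := isMC_cX RGDTwD4.hp f.mem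
  have h1 : ∀ a ∈ S4 f.t, cX RGDTwD4.hp f.t a = 1 := fun a ha => by
    rw [cX_root RGDTwD4.hp coxeterD4.toCoxeterSystem f.mem ha.1]
    exact ha.2
  have h2 : ∀ v, cX RGDTwD4.hp f.t (f.θ v) = cX RGDTwD4.hp f.t v ^ q := by
    intro v
    have h3 := cX_sigma RGDTwD4.hp coxeterD4.toCoxeterSystem f.frob f.fr f.mem v
    rw [f.fix, m.hq] at h3
    exact h3
  have hq : 0 < q := by
    rw [← m.hq]
    exact pow_pos hr.out.pos _
  have h3 : ∀ v, cX RGDTwD4.hp f.t v ^ (q ^ 2 - 1) = 1 := by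
    intro v
    obtain ⟨c₀, c₁, c₂, e⟩ := hspan v
    have h4 := congrArg (cX RGDTwD4.hp f.t) e
    rw [hχ.sub, hχ.add, hχ.add, hχ.zsmul, hχ.zsmul, hχ.zsmul, h1 _ hb, h1 _ hb1, h1 _ hb2, one_zpow, one_zpow, one_zpow,
      mul_one, mul_one, div_eq_one_iff_eq (hχ.ne_zero v), h2, h2, ← pow_mul, ← pow_two] at h4
    have h5 : cX RGDTwD4.hp f.t v ^ (q ^ 2 - 1) * cX RGDTwD4.hp f.t v = 1 * cX RGDTwD4.hp f.t v := by
      rw [← pow_succ, Nat.sub_add_cancel (Nat.one_le_pow _ _ hq), one_mul]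
      exact h4
    exact mul_right_cancel₀ (hχ.ne_zero v) h5
  have h4 : f.t ^ (q ^ 2 - 1) = 1 := by
    refine cX_inj RGDTwD4.hp (pow_mem f.mem _) (one_mem _) fun i => ?_
    rw [cX_pow RGDTwD4.hp f.mem, h3, cX_one]
  have h5 := f.eq
  rw [h5, conj_pow, h4]
  group

/-- the new prime -/
theorem case_psi {F : Type} [Field F] [Fintype F] (ψ : Matrix.SpecialLinearGroup (Fin 2) F →* Y4 r)
    (hcard : Fintype.card F = q ^ 3) (h1 : ∀ g, m.σ (ψ g) = ψ g ∧ ψ g * s = s * ψ g)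
    (h2 : ∀ c, ψ (SL2Hom.up c) = 1 → c = 0) {y : Y4 r} (hy : ∀ g, y * ψ g = ψ g * y) {c : F} (hc : c ≠ 0)
    (h : y * ψ (SL2Hom.up c) ∈ ncl m s u) (hsq : s ^ (q ^ 2 - 1) = 1) :
    ∃ y ∈ ncl m s u, y ≠ 1 ∧ ∃ t : ℕ, t.Prime ∧ t ≠ r ∧ y ^ t = 1 ∧ ¬ t ∣ orderOf s := by
  have hq : 2 ≤ q := by
    rw [← m.hq]
    exact hr.out.two_le.trans (Nat.le_self_pow m.he.ne' r)
  obtain ⟨t, ht, h3, h4, h5, h6⟩ := exists_t hq
  have h7 : t ∣ Fintype.card F - 1 := by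
    rw [hcard]
    obtain ⟨k, rfl⟩ : ∃ k, q = k + 1 := ⟨q - 1, by omega⟩
    have e : (k + 1) ^ 3 - 1 = ((k + 1) ^ 2 + (k + 1) + 1) * k := by
      have e1 : (k + 1) ^ 3 = ((k + 1) ^ 2 + (k + 1) + 1) * k + 1 := by ring
      omega
    rw [e]
    exact Dvd.dvd.mul_right h3 k
  obtain ⟨g, hg1, hg2, hg3⟩ := exists_prime ψ h2 (N := ncl m s u) (fun g v hv => ncl_conj (h1 g).1 (h1 g).2 hv) hy hc h
    ht h5 h7
  refine ⟨ψ g, hg1, hg2, t, ht, ?_, by rw [← map_pow, hg3, map_one], fun h => h4 (h.trans (orderOf_dvd_of_pow_eq_one hsq))⟩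
  rintro rfl
  apply h6
  rw [← m.hq]
  exact dvd_pow_self _ m.he.ne'

end Psi

/-! ### the result -/

section Main

variable {r q : ℕ} [hr : Fact r.Prime] {K₀ : Type} [Group K₀] [Finite K₀] {m : MData RGDTwD4.hp r q K₀} {s u : Y4 r}

/-- `α` on the root groups -/
theorem α_mem (f : TorForm m s) {a : Fin 4 → ℤ} (ha : R4 a) {x : Y4 r} (hx : x ∈ XX chevD4 4 (KK r) a) :
    f.α x ∈ XX chevD4 4 (KK r) (f.θ a) := (f.fr.map a ha x).2 hx

/-- strong orthogonality -/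
abbrev SO (a b : Fin 4 → ℤ) : Prop := ¬ R4 (a + b) ∧ ¬ R4 (a - b) ∧ a ≠ b

theorem SO.comm {a b : Fin 4 → ℤ} (h : SO a b) (ha : R4 a) (hb : R4 b) (hne : a ≠ -b) :
    ∀ x ∈ XX chevD4 4 (KK r) a, ∀ y ∈ XX chevD4 4 (KK r) b, x * y = y * x := XX_comm ha hb h.1 hne

theorem SO.comm' {a b : Fin 4 → ℤ} (h : SO a b) (ha : R4 a) (hb : R4 b) :
    ∀ x ∈ XX chevD4 4 (KK r) a, ∀ y ∈ XX chevD4 4 (KK r) (-b), x * y = y * x := by
  refine XX_comm ha hb.neg ?_ ?_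
  · rw [← sub_eq_add_neg]; exact h.2.1
  · rw [neg_neg]; exact h.2.2

theorem SO.symm {a b : Fin 4 → ℤ} (h : SO a b) : SO b a := by
  refine ⟨by rw [add_comm]; exact h.1, ?_, h.2.2.symm⟩
  intro h1
  apply h.2.1
  have := h1.neg
  rwa [neg_sub] at this

/-- **The case of an orbit of length three.** -/
theorem three (hg : m.g = permE rho4) (hdd : m.dd = 1) : H39.TD.Three m := by
  intro s hos f b hb h3 o1 o2 o3 hspan hbS x₀ x₁ x₂ y h0 h1 h2 hy hα hne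
  have hb1S : f.θ b ∈ S4 f.t := (f.stab _).2 hbS
  have hb2S : f.θ (f.θ b) ∈ S4 f.t := (f.stab _).2 hb1S
  have hb1 : R4 (f.θ b) := hb1S.1
  have hb2 : R4 (f.θ (f.θ b)) := hb2S.1
  have hsq := s_pow f hbS hb1S hb2S hspan
  obtain ⟨F, _, _, ψ, hcard, hψ1, hψ2, hψ3, hψ4⟩ := H202.TD.exists_psi m hg hdd f hb h3 o1 o2 o3 hbS
  have key : f.α (x₀ * x₁ * x₂) = x₀ * x₁ * x₂ → (∀ g, f.z * y * f.z⁻¹ * ψ g = ψ g * (f.z * y * f.z⁻¹)) →
      ∃ w ∈ ncl m s (f.z * (x₀ * x₁ * x₂ * y) * f.z⁻¹), w ≠ 1 ∧ ∃ t : ℕ, t.Prime ∧ t ≠ r ∧ w ^ t = 1 ∧ ¬ t ∣ orderOf s := by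
    intro hαv hy
    obtain ⟨c', hc'⟩ := hψ3 x₀ h0 x₁ h1 x₂ h2 hαv
    have hc0 : c' ≠ 0 := by
      rintro rfl
      rw [up_zero, map_one] at hc'
      exact hne (conj_eq_one_iff.1 hc')
    refine case_psi ψ hcard hψ1 hψ2 hy hc0 ?_ hsq
    rw [hy, ← hc']
    have e1 : f.z * (x₀ * x₁ * x₂) * f.z⁻¹ * (f.z * y * f.z⁻¹) = f.z * (x₀ * x₁ * x₂ * y) * f.z⁻¹ := by group
    rw [e1]
    exact self_mem
  rcases hy with rfl | ⟨k, hk, hθk, p1, p2, p3, hy⟩
  · refine key ?_ fun g => by rw [mul_one, mul_inv_cancel, one_mul, mul_one]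
    rw [mul_one] at hα
    exact hα
  · have q1 : b ≠ -k := by
      intro e
      have e1 : k = -b := by rw [e, neg_neg]
      rw [e1, map_neg, neg_inj] at hθk
      exact o1.2.2 hθk.symm
    have q2 : f.θ b ≠ -k := by
      intro e
      have e1 : k = -f.θ b := by rw [e, neg_neg]
      rw [e1, map_neg, neg_inj] at hθk
      exact o2.2.2 hθk.symm
    have q3 : f.θ (f.θ b) ≠ -k := by
      intro e
      have e1 : k = -f.θ (f.θ b) := by rw [e, neg_neg]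
      rw [e1, map_neg, neg_inj, h3] at hθk
      exact o3.2.2 hθk
    set V := XX chevD4 4 (KK r) b ⊔ XX chevD4 4 (KK r) (f.θ b) ⊔ XX chevD4 4 (KK r) (f.θ (f.θ b)) with hV
    have hVk : ∀ v ∈ V, ∀ y ∈ XX chevD4 4 (KK r) k, v * y = y * v := by
      intro v hv y hy
      have h2 : V ≤ Subgroup.centralizer {y} := by
        refine sup_le (sup_le ?_ ?_) ?_
        · exact fun x hx => Subgroup.mem_centralizer_singleton_iff.2 (SO.comm p1 hb hk q1 x hx y hy)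
        · exact fun x hx => Subgroup.mem_centralizer_singleton_iff.2 (SO.comm p2 hb1 hk q2 x hx y hy)
        · exact fun x hx => Subgroup.mem_centralizer_singleton_iff.2 (SO.comm p3 hb2 hk q3 x hx y hy)
      exact Subgroup.mem_centralizer_singleton_iff.1 (h2 hv)
    have hVk' : ∀ v ∈ V, ∀ y ∈ XX chevD4 4 (KK r) (-k), v * y = y * v := by
      intro v hv y hy
      have h2 : V ≤ Subgroup.centralizer {y} := by
        refine sup_le (sup_le ?_ ?_) ?_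
        · exact fun x hx => Subgroup.mem_centralizer_singleton_iff.2 (SO.comm' p1 hb hk x hx y hy)
        · exact fun x hx => Subgroup.mem_centralizer_singleton_iff.2 (SO.comm' p2 hb1 hk x hx y hy)
        · exact fun x hx => Subgroup.mem_centralizer_singleton_iff.2 (SO.comm' p3 hb2 hk x hx y hy)
      exact Subgroup.mem_centralizer_singleton_iff.1 (h2 hv)
    have l0 : XX chevD4 4 (KK r) b ≤ V := le_sup_left.trans le_sup_left
    have l1 : XX chevD4 4 (KK r) (f.θ b) ≤ V := le_sup_right.trans le_sup_left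
    have l2 : XX chevD4 4 (KK r) (f.θ (f.θ b)) ≤ V := le_sup_right
    have hv : x₀ * x₁ * x₂ ∈ V := mul_mem (mul_mem (l0 h0) (l1 h1)) (l2 h2)
    have hαV : f.α (x₀ * x₁ * x₂) ∈ V := by
      have h4 := α_mem f hb2 h2
      rw [h3] at h4
      rw [map_mul, map_mul]
      exact mul_mem (mul_mem (l1 (α_mem f hb h0)) (l2 (α_mem f hb1 h1))) (l0 h4)
    have hαy : f.α y ∈ XX chevD4 4 (KK r) k := by
      have h4 := α_mem f hk hy
      rwa [hθk] at h4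
    generalize ev : x₀ * x₁ * x₂ = v at *
    have e3 : v⁻¹ * f.α v = y * (f.α y)⁻¹ := by
      have h5 : f.α v * f.α y = v * y := by rw [← map_mul]; exact hα
      calc v⁻¹ * f.α v = v⁻¹ * (f.α v * f.α y) * (f.α y)⁻¹ := by group
        _ = v⁻¹ * (v * y) * (f.α y)⁻¹ := by rw [h5]
        _ = y * (f.α y)⁻¹ := by group
    have e4 : v⁻¹ * f.α v = 1 := by
      refine eq_one_of_comm RGDTwD4.hp hk (by rw [e3]; exact mul_mem hy (inv_mem hαy)) ?_ ?_
      · exact hVk _ (mul_mem (inv_mem hv) hαV)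
      · exact hVk' _ (mul_mem (inv_mem hv) hαV)
    have hαv : f.α v = v := (inv_mul_eq_one.1 e4).symm
    have hαy1 : f.α y = y := by
      rw [e4] at e3
      exact (mul_inv_eq_one.1 e3.symm).symm
    refine key hαv (hψ4 y ?_ ?_ hαy1)
    · exact fun x hx => (SO.comm p1 hb hk q1 x hx y hy).symm
    · exact fun x hx => SO.comm' (SO.symm p1) hk hb y hy x hx

end Main

end Cfsg.Agent.H256.TD
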